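import Mathlib
import Cfsg.Agent.H264.GN.Cls

/-!
# Simple groups of Lie type in characteristic `p` inside `GL_n(p^E)` and `GU_n(p^e)`, `n ≥ 5` prime: the orders (helper264)

* `gn` : in `H264/GN/Cls`, the general elimination;
* `gn_sl` : `c ∣ |GL_n(p^E)|` and every prime `s ∣ (p^E)^n - 1` dividing no `(p^E)^i - 1`, `0 < i < n`, divides `c`;
* `gn_su` : `c ∣ |GU_n(p^e)|` and every primitive prime of `p^{2 n e} - 1` divides `c`.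
-/

set_option autoImplicit false

namespace Cfsg.Agent.H264.GN

open Cfsg.Agent.OrdDiv Cfsg.Agent.H436 Cfsg.Agent.H915.GN

variable {p n E c : ℕ} {g : Grp}

theorem gn_sl (hp : p.Prime) (hn : n.Prime) (hn5 : 5 ≤ n) (hE : 1 ≤ E) (hg : Cond g) (hch : HasChar p g)
    (hc : den g * c = num g) (hdvd : c ∣ glN n (p ^ E))
    (hs : ∀ s, s.Prime → s ∣ (p ^ E) ^ n - 1 → (∀ i, 0 < i → i < n → ¬ s ∣ (p ^ E) ^ i - 1) → s ∣ c) :
    (∃ f, g = .psl 2 (p ^ f) ∧ 2 * f = n * E) ∨ g = .psl n (p ^ E) ∨ (∃ f, g = .psu 3 (p ^ f) ∧ 6 * f = n * E) ∨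
      (∃ f, g = .sz (p ^ f) ∧ 4 * f = n * E) ∨ (∃ f, g = .ree (p ^ f) ∧ 6 * f = n * E) :=
  sl_of_out hp hn hn5 hE hc hs (gn hp hn hn5 hE hg hch hc hdvd fun s hs' => by
    obtain ⟨h1, h2, h3⟩ := of_prim_nE hE hs'
    exact hs s h1 h2 h3)

theorem gn_su {e : ℕ} (hp : p.Prime) (hn : n.Prime) (hn5 : 5 ≤ n) (he : 1 ≤ e) (hg : Cond g) (hch : HasChar p g)
    (hc : den g * c = num g) (hdvd : c ∣ (p ^ e) ^ (n * (n - 1) / 2) * prU (p ^ e) n)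
    (hs : ∀ s, Prim p (2 * n * e) s → s ∣ c) :
    (∃ f, g = .psl 2 (p ^ f) ∧ 2 * f = n * (2 * e)) ∨ g = .psu n (p ^ e) ∨
      (∃ f, g = .psu 3 (p ^ f) ∧ 6 * f = n * (2 * e)) ∨
      (∃ f, g = .sz (p ^ f) ∧ 4 * f = n * (2 * e)) ∨ (∃ f, g = .ree (p ^ f) ∧ 6 * f = n * (2 * e)) :=
  su_of_out hp hn5 he hc hdvd (gn hp hn hn5 (by omega) hg hch hc (hdvd.trans (gu_dvd_gl n p e)) fun s hs' =>
    hs s (by rwa [show n * (2 * e) = 2 * n * e by ring] at hs'))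

end Cfsg.Agent.H264.GN
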